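import Cfsg.Agent.KFacts.HN.YTrick
import Cfsg.Agent.HN.Central
import Cfsg.Agent.H866.HNNineData

/-!
# The Harada-Norton group: the 2-central involution `W0` inverts an element of order 9 (helper866)
-/

set_option autoImplicit false

namespace Cfsg.Agent.H866.HNNine

open Cfsg.Agent.Lib.PackMat Cfsg.Agent.Lib.PackMatGroup
open Cfsg.Agent.HN.RepData Cfsg.Agent.HN.Rep Cfsg.Agent.HN.TGroup Cfsg.Agent.HN.XWords Cfsg.Agent.HN.XStruct
open Cfsg.Agent.KFacts.HN.MacData Cfsg.Agent.HN.TDataA Cfsg.Agent.KFacts.HN.YTrick Cfsg.Agent.H866.HNNineData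

/-- the conjugating word -/
def cw0 : List ℕ := [4, 6, 1, 3, 4, 7]

/-- the conjugating element -/
def c : Cfsg.Spor.HN := V cw0

/-- the word of the conjugate of `W0` -/
def uw : List ℕ := cw0 ++ (w0w ++ iw8 cw0)

/-- the conjugate of `W0` -/
def u : Cfsg.Spor.HN := V uw

theorem u_eq : u = c * W0 * c⁻¹ := by
  rw [u, uw, V_append, V_append, V_iw8, ← mul_assoc]
  rfl

theorem okMU : okG C MU = true := by decide +kernel

theorem ckU : checkEq C (Cfsg.Agent.Lib.PackMatGroup.cw L uw) [MU] 0 133 = true := by decide +kernel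

theorem codesU : Codes C (rho u) MU := codes_of codes_rho (by decide) okMU ckU

/-- the list `[W0, u]` -/
def G3 : List Cfsg.Spor.HN := [W0, u]

/-- its packed matrices -/
def L3 : List ℕ := [T0, MU]

theorem codes3 : List.Forall₂ (Codes C) (G3.map rho) L3 := by
  unfold G3 L3
  exact .cons codesW (.cons codesU .nil)

theorem ck9 : checkEq C (Cfsg.Agent.Lib.PackMatGroup.cw L3 [0, 1, 0, 1, 0, 1, 0, 1, 0, 1, 0, 1, 0, 1, 0, 1, 0, 1])
    (Cfsg.Agent.Lib.PackMatGroup.cw L3 []) 0 133 = true := by decide +kernel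

theorem ck3 : Cfsg.Agent.HN.Central.chkNe C (Cfsg.Agent.Lib.PackMatGroup.cw L3 [0, 1, 0, 1, 0, 1])
    (Cfsg.Agent.Lib.PackMatGroup.cw L3 []) = true := by decide +kernel

theorem pow_nine : (W0 * u) ^ 9 = 1 := by
  have h := rel_of codes3 (w₁ := [0, 1, 0, 1, 0, 1, 0, 1, 0, 1, 0, 1, 0, 1, 0, 1, 0, 1]) (w₂ := []) (by decide)
    (by decide) ck9
  have h1 : W0 * (u * (W0 * (u * (W0 * (u * (W0 * (u * (W0 * (u * (W0 * (u * (W0 * (u * (W0 * (u * (W0 * u)))))))))))))))) = 1 := by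
    simpa only [G3, evG_cons, evG_nil, List.getD_cons_zero, List.getD_cons_succ, mul_one] using h
  rw [← h1]
  simp only [pow_succ, pow_zero, one_mul, mul_assoc]

theorem pow_three : (W0 * u) ^ 3 ≠ 1 := by
  intro h
  have hne := ne_of_row (C := C) Cfsg.Agent.HN.Rep.good codes3 (w₁ := [0, 1, 0, 1, 0, 1]) (w₂ := []) (by decide) (by decide)
    (R := unitRow C 1 0) (unitRow_ok (c := 1) (i := 0) (good_of_check Cfsg.Agent.HN.Rep.good)
    (by decide) (by decide)).1 (Cfsg.Agent.HN.Central.ne_of_chkNe ck3)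
  apply hne
  rw [evG_map, evG_map]
  refine congrArg rho ?_
  have h1 : W0 * (u * (W0 * (u * (W0 * u)))) = 1 := by
    rw [← h]
    simp only [pow_succ, pow_zero, one_mul, mul_assoc]
  simpa only [G3, evG_cons, evG_nil, List.getD_cons_zero, List.getD_cons_succ, mul_one] using h1

theorem u_sq : u * u = 1 := by
  rw [u_eq]
  calc c * W0 * c⁻¹ * (c * W0 * c⁻¹) = c * (W0 * W0) * c⁻¹ := by group
    _ = 1 := by rw [W0_sq, mul_one, mul_inv_cancel]

/-- the element of order 9 -/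
def x : Cfsg.Spor.HN := W0 * u

theorem orderOf_x : orderOf x = 9 := by
  have : Fact (Nat.Prime 3) := ⟨Nat.prime_three⟩
  exact orderOf_eq_prime_pow (p := 3) (n := 1) (by rw [pow_one]; exact pow_three) (by exact pow_nine)

theorem inv_x : W0 * x * W0⁻¹ = x⁻¹ := by
  have h1 : u⁻¹ = u := inv_eq_of_mul_eq_one_left u_sq
  have h2 : W0⁻¹ = W0 := inv_eq_of_mul_eq_one_left W0_sq
  rw [x, mul_inv_rev, h1, h2, ← mul_assoc, W0_sq, one_mul]

end Cfsg.Agent.H866.HNNine
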