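import Cfsg.Agent.H68.MeetBase
import Cfsg.Agent.H101.RealOdd

/-!
# S5760, `p = 2`: a 2-central involution inverting an element with centralizer of odd order (helper866)
-/

set_option autoImplicit false

namespace Cfsg.Agent.H866.MeetZ

open Subgroup Cfsg.Agent.H68.MeetB

variable {S : Type*} [Group S] [Finite S]

omit [Finite S] in
theorem eq_one_of_two {y : S} (C : Subgroup S) (hC : Odd (Nat.card ↥C)) (hy : y ∈ C) {k : ℕ} (hk : y ^ 2 ^ k = 1) :
    y = 1 := by
  have h1 : orderOf y ∣ Nat.card ↥C := by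
    rw [← Subgroup.orderOf_mk y hy]
    exact orderOf_dvd_natCard _
  have h2 : orderOf y ∣ 2 ^ k := orderOf_dvd_of_pow_eq_one hk
  have h3 : Nat.Coprime (Nat.card ↥C) (2 ^ k) := Nat.Coprime.pow_right k (Nat.coprime_two_right.2 hC)
  exact orderOf_eq_one_iff.1 (Nat.eq_one_of_dvd_coprimes h3 h1 h2)

/-- **the criterion (Z)** -/
theorem meet_of_inv {z x : S} (hi : Odd (centralizer ({z} : Set S)).index) (hz : z * z = 1)
    (hzx : z * x * z⁻¹ = x⁻¹) (hC : Odd (Nat.card ↥(centralizer ({z} : Set S) ⊓ centralizer ({x} : Set S) : Subgroup S)))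
    (hx : Odd (orderOf x)) : MeetIn 2 S := by
  have : Fact (Nat.Prime 2) := ⟨Nat.prime_two⟩
  obtain ⟨P⟩ : Nonempty (Sylow 2 ↥(centralizer ({z} : Set S))) := inferInstance
  have hz' : z⁻¹ = z := inv_eq_of_mul_eq_one_left hz
  obtain ⟨m, hm⟩ := hx
  have hxm : x ^ (2 * m + 1) = 1 := by rw [← hm, pow_orderOf_eq_one]
  refine MeetIn.of_one ((P : Subgroup ↥(centralizer ({z} : Set S))).map (centralizer ({z} : Set S)).subtype)
    (P.isPGroup'.map _) ?_ ⟨x ^ m, ?_⟩
  · rw [Subgroup.index_map_subtype]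
    intro h
    rcases Nat.prime_two.dvd_mul.1 h with h1 | h1
    · exact P.not_dvd_index h1
    · exact (Nat.not_even_iff_odd.2 hi) (even_iff_two_dvd.2 h1)
  · rintro _ ⟨y, hy, rfl⟩ ⟨w, hw, hwy⟩
    have hwy' : (w : S) = x ^ m * (y : S) * (x ^ m)⁻¹ := hwy
    have h1 : (y : S) * z = z * y := mem_centralizer_singleton_iff.1 y.2
    have h2 : (w : S) * z = z * w := mem_centralizer_singleton_iff.1 w.2
    -- `y` commutes with `x⁻ᵐ z xᵐ = z x`
    have h3 : (x ^ m)⁻¹ * z * x ^ m = z * x⁻¹ := by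
      have h4 : z * x ^ m * z⁻¹ = (x ^ m)⁻¹ := by rw [← conj_pow, hzx, inv_pow]
      rw [← h4, hz']
      have h5 : x ^ m * x ^ m = x⁻¹ := by
        rw [eq_inv_iff_mul_eq_one, ← pow_add, ← pow_succ, ← two_mul]
        exact hxm
      calc z * x ^ m * z * z * x ^ m = z * x ^ m * (z * z) * x ^ m := by group
        _ = z * (x ^ m * x ^ m) := by rw [hz]; group
        _ = z * x⁻¹ := by rw [h5]
    have h6 : (y : S) * (z * x⁻¹) = z * x⁻¹ * y := by
      rw [← h3]
      have e : (y : S) = (x ^ m)⁻¹ * w * x ^ m := by rw [hwy']; group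
      rw [e]
      calc (x ^ m)⁻¹ * (w : S) * x ^ m * ((x ^ m)⁻¹ * z * x ^ m) = (x ^ m)⁻¹ * ((w : S) * z) * x ^ m := by group
        _ = (x ^ m)⁻¹ * (z * w) * x ^ m := by rw [h2]
        _ = (x ^ m)⁻¹ * z * x ^ m * ((x ^ m)⁻¹ * (w : S) * x ^ m) := by group
    have h7 : (y : S) * x⁻¹ = x⁻¹ * y := by
      have h8 : z * ((y : S) * x⁻¹) = z * (x⁻¹ * y) := by
        calc z * ((y : S) * x⁻¹) = (z * y) * x⁻¹ := by group
          _ = (y * z) * x⁻¹ := by rw [h1]
          _ = y * (z * x⁻¹) := by group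
          _ = z * x⁻¹ * y := h6
          _ = z * (x⁻¹ * y) := by group
      exact mul_left_cancel h8
    have h8 : (y : S) * x = x * y := (Commute.inv_right_iff.1 (show Commute (y : S) x⁻¹ from h7)).eq
    obtain ⟨k, hk⟩ := P.isPGroup' ⟨y, hy⟩
    have hk' : (y : S) ^ 2 ^ k = 1 := by
      have h9 : y ^ 2 ^ k = 1 := congrArg Subtype.val hk
      exact congrArg Subtype.val h9
    exact eq_one_of_two _ hC (Subgroup.mem_inf.2 ⟨y.2, mem_centralizer_singleton_iff.2 h8⟩) hk'

/-- the version with `|C(x)|` odd -/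
theorem meet_of_odd {z x : S} (hi : Odd (centralizer ({z} : Set S)).index) (hz : z * z = 1)
    (hzx : z * x * z⁻¹ = x⁻¹) (hC : Odd (Nat.card ↥(centralizer ({x} : Set S)))) : MeetIn 2 S := by
  refine meet_of_inv hi hz hzx (hC.of_dvd_nat (card_dvd_of_le inf_le_right)) ?_
  rw [← Subgroup.orderOf_mk x (mem_centralizer_singleton_iff.2 rfl)]
  exact hC.of_dvd_nat (orderOf_dvd_natCard _)

/-- an inverting element gives an inverting involution -/
theorem exists_invol {x y : S} (hy : y * x * y⁻¹ = x⁻¹) (hC : Odd (Nat.card ↥(centralizer ({x} : Set S))))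
    (hx1 : x ≠ 1) : ∃ t : S, orderOf t = 2 ∧ t * x * t⁻¹ = x⁻¹ := by
  have hxi : x ≠ x⁻¹ := by
    intro h
    have h1 : x ^ 2 ^ 1 = 1 := by
      rw [pow_one, pow_two]
      nth_rewrite 2 [h]
      exact mul_inv_cancel x
    exact hx1 (eq_one_of_two _ hC (mem_centralizer_singleton_iff.2 rfl) h1)
  obtain ⟨t, ht1, ⟨k, hk⟩, ht⟩ := Cfsg.Agent.H101.RO.exists_two_element hy hxi
  refine ⟨t, orderOf_eq_prime ?_ ht1, ht⟩
  have h1 : t ^ 2 ∈ centralizer ({x} : Set S) := by
    rw [mem_centralizer_singleton_iff]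
    apply mul_inv_eq_iff_eq_mul.1
    calc t ^ 2 * x * (t ^ 2)⁻¹ = t * (t * x * t⁻¹) * t⁻¹ := by rw [pow_two]; group
      _ = t * x⁻¹ * t⁻¹ := by rw [ht]
      _ = (t * x * t⁻¹)⁻¹ := by group
      _ = x := by rw [ht, inv_inv]
  refine eq_one_of_two _ hC h1 (k := k) ?_
  rw [← pow_mul, mul_comm, pow_mul, ← hk, pow_orderOf_eq_one, one_pow]

/-- one class of involutions -/
theorem meet_of_realOdd (h : Cfsg.Agent.H101.RO.RealOdd S)
    (hone : ∀ s t : S, orderOf s = 2 → orderOf t = 2 → IsConj s t) : MeetIn 2 S := by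
  have : Fact (Nat.Prime 2) := ⟨Nat.prime_two⟩
  obtain ⟨x, p, k, hp, hp2, hk, hx, hr, hC⟩ := h
  obtain ⟨y, hy⟩ := isConj_iff.1 hr
  obtain ⟨t, ht, htx⟩ := exists_invol hy hC (Cfsg.Agent.H101.RO.ne_one hp hk hx)
  have htt : t * t = 1 := by rw [← pow_two, ← ht, pow_orderOf_eq_one]
  refine meet_of_odd ?_ htt htx hC
  -- an involution central in a Sylow 2-subgroup
  obtain ⟨P⟩ : Nonempty (Sylow 2 S) := inferInstance
  have hP1 : Nontrivial (P : Subgroup S) := by
    by_contra hcon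
    rw [not_nontrivial_iff_subsingleton] at hcon
    have h1 : Nat.card (P : Subgroup S) = 1 := Nat.card_eq_one_iff_unique.2 ⟨hcon, ⟨1⟩⟩
    have h2 : 2 ∣ Nat.card S := by rw [← ht]; exact orderOf_dvd_natCard _
    have h3 := P.card_mul_index
    rw [h1, one_mul] at h3
    rw [← h3] at h2
    exact P.not_dvd_index h2
  have hZ : Nontrivial (center (P : Subgroup S)) := P.isPGroup'.center_nontrivial
  have h4 : 2 ∣ Nat.card (center (P : Subgroup S)) := by
    obtain ⟨n, hn⟩ := (P.isPGroup'.to_subgroup (center (P : Subgroup S))).exists_card_eq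
    rw [hn]
    apply dvd_pow_self
    rintro rfl
    rw [pow_zero] at hn
    exact (Finite.one_lt_card (α := center (P : Subgroup S))).ne' hn
  obtain ⟨u, hu⟩ := exists_prime_orderOf_dvd_card' 2 h4
  have huo : orderOf ((u : (P : Subgroup S)) : S) = 2 := by rw [Subgroup.orderOf_coe, Subgroup.orderOf_coe, hu]
  have hPu : (P : Subgroup S) ≤ centralizer ({((u : (P : Subgroup S)) : S)} : Set S) := by
    intro g hg
    rw [mem_centralizer_singleton_iff]
    exact congrArg Subtype.val (mem_center_iff.1 u.2 ⟨g, hg⟩)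
  have hodd : Odd (centralizer ({((u : (P : Subgroup S)) : S)} : Set S)).index := by
    rw [← Nat.not_even_iff_odd, even_iff_two_dvd]
    intro h5
    exact P.not_dvd_index (h5.trans (index_dvd_of_le hPu))
  obtain ⟨g, hg⟩ := isConj_iff.1 (hone _ t huo ht)
  have h6 : centralizer ({t} : Set S) =
      (centralizer ({((u : (P : Subgroup S)) : S)} : Set S)).map (MulAut.conj g).toMonoidHom := by
    ext c
    rw [mem_centralizer_singleton_iff, Subgroup.mem_map]
    constructor
    · intro hc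
      refine ⟨g⁻¹ * c * g, ?_, ?_⟩
      · rw [mem_centralizer_singleton_iff]
        have e : ((u : (P : Subgroup S)) : S) = g⁻¹ * t * g := by rw [← hg]; group
        rw [e]
        calc g⁻¹ * c * g * (g⁻¹ * t * g) = g⁻¹ * (c * t) * g := by group
          _ = g⁻¹ * (t * c) * g := by rw [hc]
          _ = g⁻¹ * t * g * (g⁻¹ * c * g) := by group
      · change g * (g⁻¹ * c * g) * g⁻¹ = c
        group
    · rintro ⟨d, hd, rfl⟩
      have hd' := mem_centralizer_singleton_iff.1 hd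
      change g * d * g⁻¹ * t = t * (g * d * g⁻¹)
      rw [← hg]
      calc g * d * g⁻¹ * (g * ((u : (P : Subgroup S)) : S) * g⁻¹) = g * (d * ((u : (P : Subgroup S)) : S)) * g⁻¹ := by group
        _ = g * (((u : (P : Subgroup S)) : S) * d) * g⁻¹ := by rw [hd']
        _ = g * ((u : (P : Subgroup S)) : S) * g⁻¹ * (g * d * g⁻¹) := by group
  rw [h6]
  have h7 : ((centralizer ({((u : (P : Subgroup S)) : S)} : Set S)).map (MulAut.conj g).toMonoidHom).index =
      (centralizer ({((u : (P : Subgroup S)) : S)} : Set S)).index := by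
    rw [Subgroup.index_map]
    have h8 : (MulAut.conj g).toMonoidHom.ker = ⊥ := (MonoidHom.ker_eq_bot_iff _).2 (MulAut.conj g).injective
    have h9 : (MulAut.conj g).toMonoidHom.range = ⊤ := MonoidHom.range_eq_top.2 (MulAut.conj g).surjective
    rw [h8, h9, sup_bot_eq, index_top, mul_one]
  rw [h7]
  exact hodd

end Cfsg.Agent.H866.MeetZ
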