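import Cfsg.Agent.H68.MeetBase
import Cfsg.Agent.H866.MeetZ
import Cfsg.Agent.H866.HNNine
import Cfsg.Agent.HN.A12Group
import Cfsg.Agent.KFacts.HN.PCard
import Cfsg.Agent.KFacts.HN.Cards
import Cfsg.Agent.KFacts.HN.Classes
import Cfsg.Agent.SigZeroHN.Main

/-!
# S5760, `p = 2`: the Harada-Norton group (helper866)

The 2-central involution `W0` inverts an element of order 9, and no involution commutes with an element of
order 9.
-/

set_option autoImplicit false

namespace Cfsg.Agent.H866.MeetHN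

open Subgroup Cfsg Cfsg.Agent.H68.MeetB Equiv
open Cfsg.Agent.HN.XWords Cfsg.Agent.HN.XStruct Cfsg.Agent.HN.XQuot Cfsg.Agent.KFacts.HN

local notation "HNg" => Cfsg.Spor.HN

instance finHN : Finite HNg := finite_HN

theorem card_HN : Nat.card HNg = 273030912000000 := Cfsg.Agent.S1701.result.2

/-! ### the centralizer of `W0` -/

theorem A5_nine (a : A5) (h : a ^ 9 = 1) : a ^ 3 = 1 := by
  have h1 : orderOf a ∣ 9 := orderOf_dvd_of_pow_eq_one h
  have h2 : orderOf a ∣ 60 := by
    have h3 := orderOf_dvd_natCard a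
    have h4 : Nat.card A5 = 60 := by
      rw [nat_card_alternatingGroup, Nat.card_eq_fintype_card, Fintype.card_fin]
      decide
    rwa [h4] at h3
  have h5 : orderOf a ∣ 3 := by
    have h6 := Nat.dvd_gcd h1 h2
    have h7 : Nat.gcd 9 60 = 3 := by decide
    rwa [h7] at h6
  exact orderOf_dvd_iff_pow_eq_one.1 h5

theorem Lq_nine (x : Lq) (h : x ^ 9 = 1) : x ^ 3 = 1 := by
  have h0 : x = (x ^ 5) * (x ^ 5) := by
    rw [← pow_add, show 5 + 5 = 9 + 1 by norm_num, pow_succ, h, one_mul]
  have h1 : x ∈ LL := by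
    rw [h0]
    exact Subgroup.mul_self_mem_of_index_two index_LL _
  obtain ⟨⟨a, b⟩, hab⟩ : ∃ p : A5 × A5, φ2 p = x := h1
  have hp : ∀ n : ℕ, φA (a ^ n) * φB (b ^ n) = x ^ n := by
    intro n
    rw [← hab, ← map_pow, Prod.pow_mk, φ2_apply]
  have h9 := hp 9
  rw [h] at h9
  obtain ⟨h2, h3⟩ := φ2_inj (a := a ^ 9) (b := b ^ 9) (a' := 1) (b' := 1) (by rw [h9, map_one, map_one, mul_one])
  rw [← hp 3, A5_nine a h2, A5_nine b h3, map_one, map_one, mul_one]

theorem card_LL : Nat.card LL = 3600 := by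
  have h1 : Function.Injective φ2 := by
    rintro ⟨a, b⟩ ⟨a', b'⟩ h
    rw [φ2_apply, φ2_apply] at h
    obtain ⟨h2, h3⟩ := φ2_inj h
    exact Prod.ext h2 h3
  have h4 : Nat.card A5 = 60 := by
    rw [nat_card_alternatingGroup, Nat.card_eq_fintype_card, Fintype.card_fin]
    decide
  rw [LL, ← Nat.card_congr (MonoidHom.ofInjective h1).toEquiv, Nat.card_prod, h4]

theorem card_Rk : Nat.card Rk = 256 := by
  have h1 := LL.card_mul_index
  rw [card_LL, index_LL] at h1
  have h2 := Subgroup.card_eq_card_quotient_mul_card_subgroup Rk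
  rw [PCard.card_KK] at h2
  have h3 : Nat.card (KK W0 ⧸ Rk) = 7200 := h1.symm
  rw [h3] at h2
  omega

/-- elements of order dividing 9 of `C(W0)` have order dividing 3 -/
theorem cent_W0_nine {g : HNg} (hg : g * W0 = W0 * g) (h : g ^ 9 = 1) : g ^ 3 = 1 := by
  let g' : centralizer ({W0} : Set HNg) := ⟨g, mem_centralizer_singleton_iff.2 hg⟩
  have hg' : g' ^ 9 = 1 := Subtype.ext h
  have h1 : (QuotientGroup.mk' Rk (QuotientGroup.mk' (Zw W0) g')) ^ 3 = 1 := by
    apply Lq_nine
    rw [← map_pow, ← map_pow, hg', map_one, map_one]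
  rw [← map_pow, ← map_pow, QuotientGroup.mk'_apply Rk, QuotientGroup.eq_one_iff] at h1
  have h2 : (QuotientGroup.mk' (Zw W0) (g' ^ 3)) ^ 256 = 1 := by
    have h3 : (⟨_, h1⟩ : Rk) ^ 256 = 1 := by
      rw [← card_Rk]
      exact pow_card_eq_one'
    exact congrArg Subtype.val h3
  rw [← map_pow, QuotientGroup.mk'_apply, QuotientGroup.eq_one_iff] at h2
  have h4 : ((g' ^ 3) ^ 256) ^ 2 = 1 := by
    obtain ⟨k, hk⟩ := mem_zpowers_iff.1 h2
    have h5 : (⟨W0, mem_centralizer_singleton_iff.2 rfl⟩ : centralizer ({W0} : Set HNg)) ^ 2 = 1 :=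
      Subtype.ext (by change W0 ^ 2 = 1; rw [pow_two, W0_sq])
    rw [← hk, ← zpow_natCast, ← zpow_mul, mul_comm k, zpow_mul, zpow_natCast, h5, one_zpow]
  have h6 : g ^ 1536 = 1 := by
    have h7 := congrArg Subtype.val h4
    have h8 : ((g ^ 3) ^ 256) ^ 2 = 1 := h7
    rw [← pow_mul, ← pow_mul] at h8
    exact h8
  have h9 : orderOf g ∣ Nat.gcd 9 1536 := Nat.dvd_gcd (orderOf_dvd_of_pow_eq_one h) (orderOf_dvd_of_pow_eq_one h6)
  have h10 : Nat.gcd 9 1536 = 3 := by decide
  rw [h10] at h9
  exact orderOf_dvd_iff_pow_eq_one.1 h9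

/-! ### no element of order 9 next to a noncyclic group of order 9 -/

theorem no_nine {K : Type*} [Group K] [Finite K] (hc : ¬ 27 ∣ Nat.card K) {a b : K} (ha : orderOf a = 3)
    (hb : orderOf b = 3) (hab : a * b = b * a) (hne1 : b ≠ a) (hne2 : b ≠ a * a) {g : K} (hg : orderOf g = 9) :
    False := by
  have : Fact (Nat.Prime 3) := ⟨Nat.prime_three⟩
  have hpa : IsPGroup 3 (zpowers a) := IsPGroup.of_card (n := 1) (by rw [Nat.card_zpowers, ha, pow_one])
  have hpb : IsPGroup 3 (zpowers b) := IsPGroup.of_card (n := 1) (by rw [Nat.card_zpowers, hb, pow_one])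
  have hpg : IsPGroup 3 (zpowers g) := IsPGroup.of_card (n := 2) (by rw [Nat.card_zpowers, hg]; norm_num)
  obtain ⟨P, hP⟩ := hpg.exists_le_sylow
  have hle : zpowers b ≤ normalizer (zpowers a : Set K) := by
    rw [zpowers_le, mem_normalizer_iff]
    intro h
    have hcom : ∀ k : ℤ, b * a ^ k * b⁻¹ = a ^ k := by
      intro k
      have : Commute b (a ^ k) := (show Commute b a from hab.symm).zpow_right k
      rw [this.eq, mul_inv_cancel_right]
    constructor
    · rintro ⟨k, rfl⟩
      exact ⟨k, (hcom k).symm⟩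
    · rintro ⟨k, hk⟩
      refine ⟨k, ?_⟩
      have hk' : a ^ k = b * h * b⁻¹ := hk
      have : b * h * b⁻¹ = b * a ^ k * b⁻¹ := by rw [hcom k, hk']
      have h2 := mul_left_cancel (mul_right_cancel this)
      exact h2.symm
  obtain ⟨Q, hQ⟩ := (hpa.to_sup_of_normal_left' hpb hle).exists_le_sylow
  have haQ : a ∈ Q := hQ (mem_sup_left (mem_zpowers a))
  have hbQ : b ∈ Q := hQ (mem_sup_right (mem_zpowers b))
  have hcardP : Nat.card P = 9 := by
    obtain ⟨n, hn⟩ := P.isPGroup'.exists_card_eq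
    have h1 : 9 ∣ Nat.card P := by
      rw [← hg, ← Nat.card_zpowers]
      exact card_dvd_of_le hP
    have h2 : ¬ 27 ∣ Nat.card P := fun h => hc (h.trans (card_subgroup_dvd_card _))
    rw [hn] at h1 h2 ⊢
    have h3 : n < 3 := by
      by_contra h
      exact h2 (by rw [show 27 = 3 ^ 3 by norm_num]; exact pow_dvd_pow 3 (by omega))
    have h4 : 2 ≤ n := by
      by_contra h
      have h5 : n = 0 ∨ n = 1 := by omega
      rcases h5 with rfl | rfl
      · exact absurd h1 (by decide)
      · exact absurd h1 (by decide)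
    have h6 : n = 2 := by omega
    rw [h6]; norm_num
  have hPg : (P : Subgroup K) = zpowers g := by
    symm
    apply Subgroup.eq_of_le_of_card_ge hP
    rw [hcardP, Nat.card_zpowers, hg]
  have hcyc : IsCyclic Q := by
    have h1 : IsCyclic P := by
      have h2 : IsCyclic (zpowers g) := inferInstance
      rw [← hPg] at h2
      exact h2
    exact isCyclic_of_surjective (P.equiv Q) (P.equiv Q).surjective
  classical
  have : Fintype Q := Fintype.ofFinite _
  have h1 := IsCyclic.card_pow_eq_one_le (α := Q) (n := 3) (by norm_num)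
  have hsub : ({1, ⟨a, haQ⟩, ⟨a * a, Q.mul_mem haQ haQ⟩, ⟨b, hbQ⟩} : Finset Q) ⊆
      Finset.univ.filter fun x : Q => x ^ 3 = 1 := by
    intro x hx
    simp only [Finset.mem_insert, Finset.mem_singleton] at hx
    rw [Finset.mem_filter]
    refine ⟨Finset.mem_univ _, ?_⟩
    have ha3 : a ^ 3 = 1 := by rw [← ha, pow_orderOf_eq_one]
    have hb3 : b ^ 3 = 1 := by rw [← hb, pow_orderOf_eq_one]
    rcases hx with rfl | rfl | rfl | rfl
    · exact one_pow 3
    · exact Subtype.ext ha3
    · refine Subtype.ext ?_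
      change (a * a) ^ 3 = 1
      rw [(Commute.refl a).mul_pow, ha3, one_mul]
    · exact Subtype.ext hb3
  have ha1 : a ≠ 1 := by rintro rfl; rw [orderOf_one] at ha; omega
  have hb1 : b ≠ 1 := by rintro rfl; rw [orderOf_one] at hb; omega
  have haa : a * a ≠ 1 := by
    intro h
    have : orderOf a ∣ 2 := orderOf_dvd_of_pow_eq_one (by rw [pow_two, h])
    rw [ha] at this
    exact absurd this (by decide)
  have h2 := Finset.card_le_card hsub
  have h3 : ({1, ⟨a, haQ⟩, ⟨a * a, Q.mul_mem haQ haQ⟩, ⟨b, hbQ⟩} : Finset Q).card = 4 := by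
    rw [Finset.card_insert_of_notMem, Finset.card_insert_of_notMem, Finset.card_insert_of_notMem,
      Finset.card_singleton]
    · rw [Finset.mem_singleton]
      exact fun h => hne2 (congrArg Subtype.val h).symm
    · rw [Finset.mem_insert, Finset.mem_singleton]
      rintro (h | h)
      · have h4 : a = a * a := congrArg Subtype.val h
        exact ha1 (mul_eq_left.1 h4.symm)
      · exact hne1 (congrArg Subtype.val h).symm
    · rw [Finset.mem_insert, Finset.mem_insert, Finset.mem_singleton]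
      rintro (h | h | h)
      · exact ha1 (congrArg Subtype.val h).symm
      · exact haa (congrArg Subtype.val h).symm
      · exact hb1 (congrArg Subtype.val h).symm
  rw [h3] at h2
  have h5 := h2.trans h1
  omega

/-- transport: an element of order 9 commuting with a conjugate -/
theorem no_nine' {K : Type*} [Group K] [Finite K] {t s a b g : K} (hts : IsConj t s)
    (hc : ¬ 27 ∣ Nat.card (centralizer ({s} : Set K))) (has : a * s = s * a) (hbs : b * s = s * b)
    (ha : orderOf a = 3) (hb : orderOf b = 3) (hab : a * b = b * a) (hne1 : b ≠ a) (hne2 : b ≠ a * a)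
    (hg : orderOf g = 9) (hgt : g * t = t * g) : False := by
  obtain ⟨c, rfl⟩ := isConj_iff.1 hts
  refine no_nine (K := centralizer ({c * t * c⁻¹} : Set K)) hc
    (a := ⟨a, mem_centralizer_singleton_iff.2 has⟩) (b := ⟨b, mem_centralizer_singleton_iff.2 hbs⟩)
    (by rw [Subgroup.orderOf_mk, ha]) (by rw [Subgroup.orderOf_mk, hb]) (Subtype.ext hab)
    (fun h => hne1 (congrArg Subtype.val h)) (fun h => hne2 (congrArg Subtype.val h))
    (g := ⟨c * g * c⁻¹, mem_centralizer_singleton_iff.2 ?_⟩) ?_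
  · calc c * g * c⁻¹ * (c * t * c⁻¹) = c * (g * t) * c⁻¹ := by group
      _ = c * (t * g) * c⁻¹ := by rw [hgt]
      _ = c * t * c⁻¹ * (c * g * c⁻¹) := by group
  · rw [Subgroup.orderOf_mk, ← MulAut.conj_apply, MulEquiv.orderOf_eq, hg]

/-! ### the other class of involutions -/

theorem exists_perm (σ : Perm (Fin 12)) (hs : Perm.sign σ = 1) : ∃ g : alternatingGroup (Fin 12), (g : Perm (Fin 12)) = σ :=
  ⟨⟨σ, Equiv.Perm.mem_alternatingGroup.2 hs⟩, rfl⟩

theorem exists_config : ∃ s a b : HNg, Nat.card (centralizer ({s} : Set HNg)) = 177408000 ∧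
    IsConj s (Cfsg.Agent.HN.NormalH.ψ Cfsg.Agent.HN.H0Basic.τ) ∧ a * s = s * a ∧ b * s = s * b ∧
      orderOf a = 3 ∧ orderOf b = 3 ∧ a * b = b * a ∧ b ≠ a ∧ b ≠ a * a := by
  have := Cfsg.Agent.S1701.result.1
  obtain ⟨K, ⟨e⟩⟩ := Cfsg.Agent.HN.A12Group.exists_alternating
  obtain ⟨s, hs⟩ := exists_perm (c[0,1] * c[2,3]) (by decide +kernel)
  obtain ⟨a, ha⟩ := exists_perm c[4,5,6] (by decide +kernel)
  obtain ⟨b, hb⟩ := exists_perm c[7,8,9] (by decide +kernel)
  obtain ⟨d, hd⟩ := exists_perm c[4,5,6,7,8,9,10] (by decide +kernel)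
  let f : alternatingGroup (Fin 12) →* HNg := K.subtype.comp e.symm.toMonoidHom
  have hf : Function.Injective f := K.subtype_injective.comp e.symm.injective
  have hord : ∀ g : alternatingGroup (Fin 12), orderOf (f g) = orderOf (g : Perm (Fin 12)) := by
    intro g
    rw [orderOf_injective f hf, Subgroup.orderOf_coe]
  have : Fact (Nat.Prime 3) := ⟨Nat.prime_three⟩
  have : Fact (Nat.Prime 7) := ⟨by norm_num⟩
  have : Fact (Nat.Prime 2) := ⟨Nat.prime_two⟩
  have hos : orderOf (f s) = 2 := by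
    rw [hord, hs]
    exact orderOf_eq_prime (by decide +kernel) (by decide +kernel)
  have hoa : orderOf (f a) = 3 := by
    rw [hord, ha]
    exact orderOf_eq_prime (by decide +kernel) (by decide +kernel)
  have hob : orderOf (f b) = 3 := by
    rw [hord, hb]
    exact orderOf_eq_prime (by decide +kernel) (by decide +kernel)
  have hod : orderOf (f d) = 7 := by
    rw [hord, hd]
    exact orderOf_eq_prime (by decide +kernel) (by decide +kernel)
  have has : a * s = s * a := Subtype.ext (by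
    rw [Subgroup.coe_mul, Subgroup.coe_mul, ha, hs]; decide +kernel)
  have hbs : b * s = s * b := Subtype.ext (by
    rw [Subgroup.coe_mul, Subgroup.coe_mul, hb, hs]; decide +kernel)
  have hds : d * s = s * d := Subtype.ext (by
    rw [Subgroup.coe_mul, Subgroup.coe_mul, hd, hs]; decide +kernel)
  have hab : a * b = b * a := Subtype.ext (by
    rw [Subgroup.coe_mul, Subgroup.coe_mul, ha, hb]; decide +kernel)
  have hne1 : b ≠ a := by
    intro h
    have h1 := congrArg (fun g : alternatingGroup (Fin 12) => (g : Perm (Fin 12))) h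
    simp only [ha, hb] at h1
    exact absurd h1 (by decide +kernel)
  have hne2 : b ≠ a * a := by
    intro h
    have h1 := congrArg (fun g : alternatingGroup (Fin 12) => (g : Perm (Fin 12))) h
    simp only [Subgroup.coe_mul, ha, hb] at h1
    exact absurd h1 (by decide +kernel)
  have h7 : 7 ∣ Nat.card (centralizer ({f s} : Set HNg)) := by
    have h1 : f d ∈ centralizer ({f s} : Set HNg) := by
      rw [mem_centralizer_singleton_iff, ← map_mul, ← map_mul, hds]
    rw [← hod, ← Subgroup.orderOf_mk (f d) h1]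
    exact orderOf_dvd_natCard _
  refine ⟨f s, f a, f b, ?_⟩
  rcases Cfsg.Agent.SigZeroHN.card_centralizer_cases hos with ⟨h1, h2⟩ | ⟨h1, h2⟩
  · refine ⟨h2, h1, ?_, ?_, hoa, hob, ?_, fun h => hne1 (hf h), fun h => hne2 (hf (by rw [h, map_mul]))⟩
    · rw [← map_mul, ← map_mul, has]
    · rw [← map_mul, ← map_mul, hbs]
    · rw [← map_mul, ← map_mul, hab]
  · rw [h2] at h7
    exact absurd h7 (by norm_num)

/-- **no involution commutes with an element of order 9** -/
theorem no_two_nine {t g : HNg} (ht : orderOf t = 2) (hg : orderOf g = 9) (hgt : g * t = t * g) : False := by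
  rcases Cfsg.Agent.SigZeroHN.card_centralizer_cases ht with ⟨h1, -⟩ | ⟨h1, -⟩
  · obtain ⟨s, a, b, hs, hsc, has, hbs, ha, hb, hab, hne1, hne2⟩ := exists_config
    exact no_nine' (h1.trans hsc.symm) (by rw [hs]; norm_num) has hbs ha hb hab hne1 hne2 hg hgt
  · obtain ⟨c, hc⟩ := isConj_iff.1 h1
    have h2 : (c * g * c⁻¹) * W0 = W0 * (c * g * c⁻¹) := by
      rw [← hc]
      calc c * g * c⁻¹ * (c * t * c⁻¹) = c * (g * t) * c⁻¹ := by group
        _ = c * (t * g) * c⁻¹ := by rw [hgt]
        _ = c * t * c⁻¹ * (c * g * c⁻¹) := by group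
    have h9 : orderOf (c * g * c⁻¹) = 9 := by rw [← MulAut.conj_apply, MulEquiv.orderOf_eq, hg]
    have h3 := cent_W0_nine h2 (by rw [← h9, pow_orderOf_eq_one])
    have h4 := orderOf_dvd_of_pow_eq_one h3
    rw [h9] at h4
    exact absurd h4 (by decide)

theorem odd_cent_nine {g : HNg} (hg : orderOf g = 9) : Odd (Nat.card (centralizer ({g} : Set HNg))) := by
  rw [← Nat.not_even_iff_odd, even_iff_two_dvd]
  intro h
  have : Fact (Nat.Prime 2) := ⟨Nat.prime_two⟩
  obtain ⟨⟨t, ht⟩, hto⟩ := exists_prime_orderOf_dvd_card' 2 h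
  rw [Subgroup.orderOf_mk] at hto
  exact no_two_nine hto hg (mem_centralizer_singleton_iff.1 ht).symm

theorem meet2_hn {G : Type*} [Group G] [Finite G] [IsSimpleGroup G] (h : Cfsg.Spor.IsoHN G) : MeetIn 2 G := by
  obtain ⟨e⟩ := h
  refine MeetIn.congr e.symm ?_
  refine MeetZ.meet_of_odd (z := W0) (x := HNNine.x) ?_ W0_sq HNNine.inv_x (odd_cent_nine HNNine.orderOf_x)
  have h1 := (centralizer ({W0} : Set HNg)).card_mul_index
  rw [PCard.card_centralizer, card_HN] at h1
  have h2 : (centralizer ({W0} : Set HNg)).index = 74064375 := by omega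
  rw [h2]
  exact ⟨37032187, by norm_num⟩

end Cfsg.Agent.H866.MeetHN
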