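import Cfsg.Agent.UGT.KF811.MTwentyTwo
import Cfsg.Agent.H865.Invol
import Cfsg.Agent.S5563
import Cfsg.Agent.S5564

/-!
# The involutions commuting with an element of order 3 of `J4`

* `ncard_invol_M22` : `M22` has at most 1155 involutions;
* `ncard_inv_le` : in a simple group of Janko-four type an element of order 3 commutes with at most 2311
  involutions (its centralizer is the sixfold cover of `M22`).
-/

set_option autoImplicit false

namespace Cfsg.Agent.H866.J4CentThree

open Cfsg Cfsg.Agent.UGT.KF811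
open Cfsg.Agent.SporadicA.OctadFix (fixOct mem_fixOct card_fixOct)
open Cfsg.Agent.SporadicA.MathieuRecog (mem_M22_iff)

theorem mem_oct {v : Equiv.Perm GolayPt} (hv : v ∈ Spor.M22) (h2 : v * v = 1) (h1 : v ≠ 1) :
    ∃ o ∈ Oct2, v ∈ fixOct o := by
  obtain ⟨h24, hn, h0⟩ := (mem_M22_iff v).1 hv
  have ho : orderOf v = 2 := orderOf_eq_prime (by rw [pow_two]; exact h2) h1
  rcases H865.Invol.kinds h24 ho with ⟨h, -⟩ | ⟨h, -⟩
  · refine ⟨H865.Invol.fp v, ⟨h, H865.Invol.mem_fp.2 hn, H865.Invol.mem_fp.2 h0⟩, ?_⟩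
    rw [mem_fixOct]
    exact ⟨h24, fun p hp => H865.Invol.mem_fp.1 hp⟩
  · exact absurd hn (h _)

theorem ncard_invol_M22 : {v : Spor.M22 | v * v = 1 ∧ v ≠ 1}.ncard ≤ 1155 := by
  classical
  have hfin : Fintype (Spor.M22 : Subgroup (Equiv.Perm GolayPt)) := Fintype.ofFinite _
  have hO : Set.Finite Oct2 := Set.toFinite _
  let B : Finset GolayPt → Finset Spor.M22 := fun o =>
    Finset.univ.filter fun v => (v : Equiv.Perm GolayPt) ∈ fixOct o ∧ v ≠ 1
  have hsub : {v : Spor.M22 | v * v = 1 ∧ v ≠ 1} ⊆ ((hO.toFinset.biUnion B : Finset Spor.M22) : Set Spor.M22) := by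
    rintro v ⟨h2, h1⟩
    obtain ⟨o, ho, hv⟩ := mem_oct v.2 (congrArg Subtype.val h2) (fun h => h1 (Subtype.ext h))
    rw [Finset.mem_coe, Finset.mem_biUnion]
    exact ⟨o, hO.mem_toFinset.2 ho, Finset.mem_filter.2 ⟨Finset.mem_univ _, hv, h1⟩⟩
  have hB : ∀ o ∈ hO.toFinset, (B o).card ≤ 15 := by
    intro o ho
    have hoc : o ∈ octads := (hO.mem_toFinset.1 ho).1
    have h1 : (insert (1 : Spor.M22) (B o)).card ≤ 16 := by
      have h2 : ((insert (1 : Spor.M22) (B o) : Finset Spor.M22) : Set Spor.M22).ncard ≤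
          (fixOct o : Set (Equiv.Perm GolayPt)).ncard := by
        refine Set.ncard_le_ncard_of_injOn (fun v => (v : Equiv.Perm GolayPt)) ?_
          (fun a _ b _ h => Subtype.ext h) (Set.toFinite _)
        intro v hv
        rw [Finset.mem_coe, Finset.mem_insert] at hv
        rcases hv with rfl | hv
        · exact (fixOct o).one_mem
        · exact (Finset.mem_filter.1 hv).2.1
      rw [Set.ncard_coe_finset, ← Nat.card_coe_set_eq] at h2
      exact h2.trans (card_fixOct hoc).le
    rw [Finset.card_insert_of_notMem (by simp [B])] at h1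
    omega
  calc _ ≤ ((hO.toFinset.biUnion B : Finset Spor.M22) : Set Spor.M22).ncard :=
        Set.ncard_le_ncard hsub (Set.toFinite _)
    _ = (hO.toFinset.biUnion B).card := Set.ncard_coe_finset _
    _ ≤ hO.toFinset.card * 15 := Finset.card_biUnion_le_card_mul _ _ _ hB
    _ = 1155 := by rw [← Set.ncard_eq_toFinset_card _ hO, ncard_Oct2]

/-- A central extension of `M22` by a cyclic group has at most `2311` involutions. -/
theorem ncard_invol_cover {C : Type*} [Group C] [Finite C] (hc : IsCyclic (Subgroup.center C))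
    (h22 : Spor.IsoM22 (C ⧸ Subgroup.center C)) : {v : C | v * v = 1 ∧ v ≠ 1}.ncard ≤ 2311 := by
  classical
  obtain ⟨e⟩ := h22
  have hfin : Fintype C := Fintype.ofFinite _
  have hfin2 : Fintype (Subgroup.center C) := Fintype.ofFinite _
  let f : C →* Spor.M22 := e.toMonoidHom.comp (QuotientGroup.mk' (Subgroup.center C))
  have hf : ∀ a b : C, f a = f b → a⁻¹ * b ∈ Subgroup.center C := by
    intro a b h
    have h1 : (QuotientGroup.mk' (Subgroup.center C)) a = (QuotientGroup.mk' (Subgroup.center C)) b :=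
      e.injective h
    exact QuotientGroup.eq.1 h1
  let J : Finset C := Finset.univ.filter fun v => v * v = 1
  have hfib : ∀ b ∈ J.image f, (J.filter fun x => f x = b).card ≤ 2 := by
    intro b hb
    obtain ⟨v, hv, rfl⟩ := Finset.mem_image.1 hb
    have hv2 : v * v = 1 := (Finset.mem_filter.1 hv).2
    have h2 : (Finset.univ.filter fun c : Subgroup.center C => c ^ 2 = 1).card ≤ 2 :=
      IsCyclic.card_pow_eq_one_le (by norm_num)
    refine le_trans ?_ h2
    refine Finset.card_le_card_of_surjOn (fun c => v * (c : C)) ?_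
    intro x hx
    rw [Finset.mem_coe, Finset.mem_filter, Finset.mem_filter] at hx
    obtain ⟨⟨-, hx2⟩, hxf⟩ := hx
    have hz := hf v x hxf.symm
    refine ⟨⟨v⁻¹ * x, hz⟩, ?_, ?_⟩
    · rw [Finset.mem_coe, Finset.mem_filter]
      refine ⟨Finset.mem_univ _, Subtype.ext ?_⟩
      change (v⁻¹ * x) ^ 2 = 1
      have h3 : v * (v⁻¹ * x) = (v⁻¹ * x) * v := Subgroup.mem_center_iff.1 hz v
      have h4 : x = v * (v⁻¹ * x) := by group
      have h5 : v * (v⁻¹ * x) * (v * (v⁻¹ * x)) = 1 := by rw [← h4]; exact hx2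
      have h6 : v * (v⁻¹ * x) * (v * (v⁻¹ * x)) = (v * v) * ((v⁻¹ * x) * (v⁻¹ * x)) := by
        rw [mul_assoc v (v⁻¹ * x), ← mul_assoc (v⁻¹ * x) v, ← h3]
        group
      rw [h5, hv2, one_mul] at h6
      rw [pow_two, ← h6]
    · change v * (v⁻¹ * x) = x
      group
  have himg : (J.image f).card ≤ 1156 := by
    have h1 : J.image f ⊆ insert 1 ((Set.toFinite {v : Spor.M22 | v * v = 1 ∧ v ≠ 1}).toFinset) := by
      intro b hb
      obtain ⟨v, hv, rfl⟩ := Finset.mem_image.1 hb
      have hv2 : v * v = 1 := (Finset.mem_filter.1 hv).2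
      rw [Finset.mem_insert]
      by_cases h : f v = 1
      · exact Or.inl h
      · right
        rw [Set.Finite.mem_toFinset]
        exact ⟨by rw [← map_mul, hv2, map_one], h⟩
    have h2 := ncard_invol_M22
    rw [Set.ncard_eq_toFinset_card _ (Set.toFinite _)] at h2
    exact (Finset.card_le_card h1).trans ((Finset.card_insert_le _ _).trans (by omega))
  have hJ : J.card ≤ 2312 := by
    have := Finset.card_le_mul_card_image J 2 hfib
    omega
  have h3 : {v : C | v * v = 1 ∧ v ≠ 1} = ((J.erase 1 : Finset C) : Set C) := by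
    ext v
    simp [J]
  have h1J : (1 : C) ∈ J := Finset.mem_filter.2 ⟨Finset.mem_univ _, one_mul 1⟩
  rw [h3, Set.ncard_coe_finset, Finset.card_erase_of_mem h1J]
  omega

/-- An element of order 3 of a simple group of Janko-four type commutes with at most 2311 involutions. -/
theorem ncard_inv_le {G : Type*} [Group G] [Finite G] [IsSimpleGroup G] (hG : ¬ IsMulCommutative G)
    (hJ : Cfsg.IsOfJankoFourType G) {x : G} (hx : orderOf x = 3) :
    Set.ncard {v : G | v * v = 1 ∧ v ≠ 1 ∧ v * x = x * v} ≤ 2311 := by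
  have hconj := Cfsg.Agent.S5564.result hG hJ
  obtain ⟨z, P, h⟩ := hJ
  obtain ⟨-, hcyc, -, h22, hN⟩ := Cfsg.Agent.S5563.result hG z P h
  have hP3 : Nat.card P = 3 := h.2.2.2.2.2.1
  have h3f : Fact (Nat.Prime 3) := ⟨Nat.prime_three⟩
  obtain ⟨⟨p, hpP⟩, hp⟩ := exists_prime_orderOf_dvd_card' (G := P) 3 (by rw [hP3])
  rw [Subgroup.orderOf_mk] at hp
  have hPp : P = Subgroup.zpowers p := by
    symm
    apply Subgroup.eq_of_le_of_card_ge
    · rw [Subgroup.zpowers_le]; exact hpP
    · rw [hP3, Nat.card_zpowers, hp]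
  obtain ⟨g, hg⟩ := isConj_iff.1 (hconj x p hx hp)
  classical
  refine le_trans ?_ (ncard_invol_cover hcyc h22)
  have hmem : ∀ v : G, v * x = x * v → g * v * g⁻¹ ∈
      Subgroup.centralizer ({z} : Set G) ⊓ Subgroup.centralizer (P : Set G) := by
    intro v hv
    have h1 : g * v * g⁻¹ ∈ Subgroup.centralizer (P : Set G) := by
      have h2 : Commute p (g * v * g⁻¹) := by
        change p * (g * v * g⁻¹) = (g * v * g⁻¹) * p
        rw [← hg]
        calc g * x * g⁻¹ * (g * v * g⁻¹) = g * (x * v) * g⁻¹ := by group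
          _ = g * (v * x) * g⁻¹ := by rw [hv]
          _ = _ := by group
      rw [Subgroup.mem_centralizer_iff]
      intro h hh
      rw [hPp] at hh
      obtain ⟨k, rfl⟩ := hh
      exact (h2.zpow_left k).eq
    exact ⟨hN (Subgroup.centralizer_le_normalizer (P : Set G) h1), h1⟩
  refine Set.ncard_le_ncard_of_injOn (fun v => if hv : v * x = x * v then ⟨g * v * g⁻¹, hmem v hv⟩ else 1)
    ?_ ?_ (Set.toFinite _)
  · rintro v ⟨h2, h1, hv⟩
    simp only [hv, dite_true]
    refine ⟨Subtype.ext ?_, fun h0 => h1 ?_⟩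
    · change g * v * g⁻¹ * (g * v * g⁻¹) = 1
      calc g * v * g⁻¹ * (g * v * g⁻¹) = g * (v * v) * g⁻¹ := by group
        _ = 1 := by rw [h2]; group
    · have h4 : g * v * g⁻¹ = 1 := congrArg Subtype.val h0
      exact conj_eq_one_iff.1 h4
  · rintro v ⟨-, -, hv⟩ w ⟨-, -, hw⟩ h0
    simp only [hv, hw, dite_true] at h0
    have h4 : g * v * g⁻¹ = g * w * g⁻¹ := congrArg Subtype.val h0
    exact mul_left_cancel (mul_right_cancel h4)

end Cfsg.Agent.H866.J4CentThree
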