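import Cfsg.Agent.OddHalf.D8.Fi23.Facts
import Mathlib

/-!
# `Fi23`: every involution is 2-central (helper866)

From the fact sheet `OddHalf.D8.Fi23.Sheet`: the Sylow 2-subgroup `S` fixes a point, a pair and a triple of the 23
transpositions of `A`.
-/

set_option autoImplicit false

namespace Cfsg.Agent.H866.Fi23Odd

open Subgroup Cfsg.Agent.OddHalf.D8.Fi23 MulAction
open scoped Pointwise

variable {K : Type*} [Group K] [Finite K] {A : Subgroup K} {S : Sylow 2 K} {a : Fin 23 → K}

omit [Finite K] in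
theorem inj (H : Sheet K A S a) : Function.Injective a := by
  intro i j hij
  by_contra hne
  -- all `a k` are equal
  have hall : ∀ k, a k = a i := by
    intro k
    by_cases hk : k = i
    · rw [hk]
    obtain ⟨l, hl⟩ : ∃ l : Fin 23, l ∉ ({i, j, k} : Finset (Fin 23)) := by
      by_contra hcon
      push Not at hcon
      have h1 : (Finset.univ : Finset (Fin 23)) ⊆ {i, j, k} := fun l _ => hcon l
      have h2 := Finset.card_le_card h1
      have h3 : ({i, j, k} : Finset (Fin 23)).card ≤ 3 := Finset.card_le_three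
      rw [Finset.card_univ, Fintype.card_fin] at h2
      omega
    simp only [Finset.mem_insert, Finset.mem_singleton, not_or] at hl
    obtain ⟨n, -, h1, h2, -⟩ := H.three i j l i k l hne (Ne.symm hl.1) (Ne.symm hl.2.1) (Ne.symm hk)
      (Ne.symm hl.1) (Ne.symm hl.2.2)
    rw [← h2, ← hij, h1]
  have hi2 : a i * a i = 1 := H.sq _ (H.mem i)
  have hsub : (A : Set K) ⊆ {1, a i} := by
    intro x hx
    rcases H.shape x hx with h | ⟨k, h⟩ | ⟨k, l, h⟩ | ⟨k, l, m, h⟩
    · exact Or.inl h
    · exact Or.inr (by rw [h, hall k]; rfl)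
    · exact Or.inl (by rw [h, hall k, hall l, hi2])
    · exact Or.inr (by rw [h, hall k, hall l, hall m, hi2, one_mul]; rfl)
  have hfin : ({1, a i} : Set K).Finite := by simp
  have h1 := Set.ncard_le_ncard hsub hfin
  have h2 : ({1, a i} : Set K).ncard ≤ 2 := by
    refine (Set.ncard_insert_le _ _).trans ?_
    rw [Set.ncard_singleton]
  have h3 : (A : Set K).ncard = 2 ^ 11 := H.cardA
  rw [h3] at h1
  omega

omit [Finite K] in
theorem le_normalizer (H : Sheet K A S a) : (S : Subgroup K) ≤ normalizer (A : Set K) := by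
  intro s hs
  have h1 : A.map (MulAut.conj s).toMonoidHom = A := by
    refine H.uniq _ ?_ ?_ ?_
    · rintro _ ⟨x, hx, rfl⟩
      exact (S : Subgroup K).mul_mem ((S : Subgroup K).mul_mem hs (H.AS hx)) ((S : Subgroup K).inv_mem hs)
    · rintro _ ⟨x, hx, rfl⟩
      rw [← map_mul, H.sq x hx, map_one]
    · rw [Subgroup.card_map_of_injective (MulAut.conj s).injective, H.cardA]
  rw [mem_normalizer_iff]
  intro x
  constructor
  · intro hx
    have h2 : (MulAut.conj s).toMonoidHom x ∈ A.map (MulAut.conj s).toMonoidHom := mem_map_of_mem _ hx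
    rw [h1] at h2
    exact h2
  · intro hx
    rw [← h1] at hx
    obtain ⟨y, hy, hxy⟩ := hx
    have h3 : s * y * s⁻¹ = s * x * s⁻¹ := hxy
    have h4 := mul_left_cancel (mul_right_cancel h3)
    rw [← h4]; exact hy

omit [Finite K] in
theorem comm (H : Sheet K A S a) (i j : Fin 23) : a i * a j = a j * a i := by
  have hi := H.sq _ (H.mem i)
  have hj := H.sq _ (H.mem j)
  have hij := H.sq _ (A.mul_mem (H.mem i) (H.mem j))
  have h1 : (a i * a j)⁻¹ = a i * a j := inv_eq_of_mul_eq_one_left hij
  rw [mul_inv_rev, inv_eq_of_mul_eq_one_left hi, inv_eq_of_mul_eq_one_left hj] at h1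
  exact h1.symm

omit [Finite K] in
/-- the action of `S` on the 23 transpositions -/
theorem exists_action (H : Sheet K A S a) : ∃ _ : MulAction (S : Subgroup K) (Fin 23),
    ∀ (s : (S : Subgroup K)) (i : Fin 23), (s : K) * a i * (s : K)⁻¹ = a (s • i) := by
  have hp : ∀ (s : (S : Subgroup K)) (i : Fin 23), ∃ j, (s : K) * a i * (s : K)⁻¹ = a j := fun s i =>
    H.perm s (le_normalizer H s.2) i
  choose f hf using hp
  have h1 : ∀ i, f 1 i = i := fun i => by
    apply inj H
    rw [← hf, Subgroup.coe_one, one_mul, inv_one, mul_one]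
  have h2 : ∀ (s t : (S : Subgroup K)) (i : Fin 23), f (s * t) i = f s (f t i) := fun s t i => by
    apply inj H
    rw [← hf, ← hf, ← hf, Subgroup.coe_mul, mul_inv_rev]
    group
  exact ⟨{ smul := f, one_smul := h1, mul_smul := h2 }, fun s i => hf s i⟩

omit [Finite K] in
/-- `S` fixes a `k`-subset, `k = 1, 2, 3` -/
theorem exists_fixed (_ : Sheet K A S a) [MulAction (S : Subgroup K) (Fin 23)] {k : ℕ} (hk : ¬ 2 ∣ Nat.choose 23 k) :
    ∃ T : Finset (Fin 23), T.card = k ∧ ∀ s : (S : Subgroup K), s • T = T := by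
  classical
  have h1 : ¬ 2 ∣ Nat.card (Set.powersetCard (Fin 23) k) := by
    rw [Set.powersetCard.card, Nat.card_eq_fintype_card, Fintype.card_fin]
    exact hk
  have : Fact (Nat.Prime 2) := ⟨Nat.prime_two⟩
  obtain ⟨T, hT⟩ := S.isPGroup'.nonempty_fixed_point_of_prime_not_dvd_card _ h1
  refine ⟨T.1, T.2, fun s => ?_⟩
  have h2 := congrArg (fun T : Set.powersetCard (Fin 23) k => (T : Finset (Fin 23))) (hT s)
  exact h2

omit [Finite K] in
/-- the products of one, two, three transpositions are 2-central -/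
theorem exists_cent (H : Sheet K A S a) : (∃ i, (S : Subgroup K) ≤ centralizer ({a i} : Set K)) ∧
    (∃ i j, i ≠ j ∧ (S : Subgroup K) ≤ centralizer ({a i * a j} : Set K)) ∧
      ∃ i j k, i ≠ j ∧ i ≠ k ∧ j ≠ k ∧ (S : Subgroup K) ≤ centralizer ({a i * a j * a k} : Set K) := by
  classical
  obtain ⟨act, hact⟩ := exists_action H
  have hc := comm H
  refine ⟨?_, ?_, ?_⟩
  · obtain ⟨T, hT, hfix⟩ := exists_fixed H (k := 1) (by decide)
    obtain ⟨i, rfl⟩ := Finset.card_eq_one.1 hT
    refine ⟨i, fun s hs => ?_⟩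
    have h1 := hfix ⟨s, hs⟩
    rw [Finset.smul_finset_singleton, Finset.singleton_inj] at h1
    have h2 := hact ⟨s, hs⟩ i
    rw [h1] at h2
    rw [mem_centralizer_singleton_iff]
    exact mul_inv_eq_iff_eq_mul.1 h2
  · obtain ⟨T, hT, hfix⟩ := exists_fixed H (k := 2) (by decide)
    obtain ⟨i, j, hij, rfl⟩ := Finset.card_eq_two.1 hT
    refine ⟨i, j, hij, fun s hs => ?_⟩
    have h1 := hfix ⟨s, hs⟩
    have hi : (⟨s, hs⟩ : (S : Subgroup K)) • i ∈ ({i, j} : Finset (Fin 23)) := by
      rw [← h1]
      exact Finset.smul_mem_smul_finset (Finset.mem_insert_self _ _)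
    have hj : (⟨s, hs⟩ : (S : Subgroup K)) • j ∈ ({i, j} : Finset (Fin 23)) := by
      rw [← h1]
      exact Finset.smul_mem_smul_finset (Finset.mem_insert_of_mem (Finset.mem_singleton_self _))
    have hne : (⟨s, hs⟩ : (S : Subgroup K)) • i ≠ (⟨s, hs⟩ : (S : Subgroup K)) • j :=
      fun h => hij (MulAction.injective _ h)
    have e : s * (a i * a j) * s⁻¹ = (s * a i * s⁻¹) * (s * a j * s⁻¹) := by group
    rw [mem_centralizer_singleton_iff]
    refine mul_inv_eq_iff_eq_mul.1 ?_
    rw [e, hact ⟨s, hs⟩ i, hact ⟨s, hs⟩ j]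
    rw [Finset.mem_insert, Finset.mem_singleton] at hi hj
    rcases hi with hi | hi <;> rcases hj with hj | hj
    · exact absurd (hi.trans hj.symm) hne
    · rw [hi, hj]
    · rw [hi, hj, hc]
    · exact absurd (hi.trans hj.symm) hne
  · obtain ⟨T, hT, hfix⟩ := exists_fixed H (k := 3) (by decide)
    obtain ⟨i, j, k, hij, hik, hjk, rfl⟩ := Finset.card_eq_three.1 hT
    refine ⟨i, j, k, hij, hik, hjk, fun s hs => ?_⟩
    have h1 := hfix ⟨s, hs⟩
    have hi : (⟨s, hs⟩ : (S : Subgroup K)) • i ∈ ({i, j, k} : Finset (Fin 23)) := by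
      rw [← h1]
      exact Finset.smul_mem_smul_finset (by simp)
    have hj : (⟨s, hs⟩ : (S : Subgroup K)) • j ∈ ({i, j, k} : Finset (Fin 23)) := by
      rw [← h1]
      exact Finset.smul_mem_smul_finset (by simp)
    have hk : (⟨s, hs⟩ : (S : Subgroup K)) • k ∈ ({i, j, k} : Finset (Fin 23)) := by
      rw [← h1]
      exact Finset.smul_mem_smul_finset (by simp)
    have hne1 : (⟨s, hs⟩ : (S : Subgroup K)) • i ≠ (⟨s, hs⟩ : (S : Subgroup K)) • j :=
      fun h => hij (MulAction.injective _ h)
    have hne2 : (⟨s, hs⟩ : (S : Subgroup K)) • i ≠ (⟨s, hs⟩ : (S : Subgroup K)) • k :=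
      fun h => hik (MulAction.injective _ h)
    have hne3 : (⟨s, hs⟩ : (S : Subgroup K)) • j ≠ (⟨s, hs⟩ : (S : Subgroup K)) • k :=
      fun h => hjk (MulAction.injective _ h)
    have e : s * (a i * a j * a k) * s⁻¹ = (s * a i * s⁻¹) * (s * a j * s⁻¹) * (s * a k * s⁻¹) := by group
    have h132 : a i * a k * a j = a i * a j * a k := by rw [mul_assoc, hc k j, ← mul_assoc]
    have h213 : a j * a i * a k = a i * a j * a k := by rw [hc j i]
    have h231 : a j * a k * a i = a i * a j * a k := by rw [mul_assoc, hc k i, ← mul_assoc, h213]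
    have h312 : a k * a i * a j = a i * a j * a k := by rw [hc k i, h132]
    have h321 : a k * a j * a i = a i * a j * a k := by rw [hc k j, h231]
    rw [mem_centralizer_singleton_iff]
    refine mul_inv_eq_iff_eq_mul.1 ?_
    rw [e, hact ⟨s, hs⟩ i, hact ⟨s, hs⟩ j, hact ⟨s, hs⟩ k]
    rw [Finset.mem_insert, Finset.mem_insert, Finset.mem_singleton] at hi hj hk
    rcases hi with hi | hi | hi <;> rcases hj with hj | hj | hj <;> rcases hk with hk | hk | hk <;>
      first
      | exact absurd (hi.trans hj.symm) hne1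
      | exact absurd (hi.trans hk.symm) hne2
      | exact absurd (hj.trans hk.symm) hne3
      | (rw [hi, hj, hk]; done)
      | (rw [hi, hj, hk]; first | exact h132 | exact h213 | exact h231 | exact h312 | exact h321)

theorem odd_index_of_le {x : K} (h : (S : Subgroup K) ≤ centralizer ({x} : Set K)) :
    Odd (centralizer ({x} : Set K)).index := by
  have : Fact (Nat.Prime 2) := ⟨Nat.prime_two⟩
  rw [← Nat.not_even_iff_odd, even_iff_two_dvd]
  intro h5
  exact S.not_dvd_index (h5.trans (index_dvd_of_le h))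

theorem index_conj {x y : K} (h : IsConj x y) :
    (centralizer ({x} : Set K)).index = (centralizer ({y} : Set K)).index := by
  have h1 := (centralizer ({x} : Set K)).card_mul_index
  have h2 := (centralizer ({y} : Set K)).card_mul_index
  obtain ⟨g, rfl⟩ := isConj_iff.1 h
  have h3 : Nat.card (centralizer ({g * x * g⁻¹} : Set K)) = Nat.card (centralizer ({x} : Set K)) := by
    have e : (centralizer ({x} : Set K)).map (MulAut.conj g).toMonoidHom = centralizer ({g * x * g⁻¹} : Set K) := by
      ext y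
      rw [Subgroup.mem_map, mem_centralizer_singleton_iff]
      constructor
      · rintro ⟨y, hy, rfl⟩
        have hy' : y * x = x * y := mem_centralizer_singleton_iff.1 hy
        change g * y * g⁻¹ * (g * x * g⁻¹) = g * x * g⁻¹ * (g * y * g⁻¹)
        calc g * y * g⁻¹ * (g * x * g⁻¹) = g * (y * x) * g⁻¹ := by group
          _ = g * (x * y) * g⁻¹ := by rw [hy']
          _ = g * x * g⁻¹ * (g * y * g⁻¹) := by group
      · intro hy
        refine ⟨g⁻¹ * y * g, ?_, ?_⟩
        · rw [mem_centralizer_singleton_iff]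
          calc g⁻¹ * y * g * x = g⁻¹ * (y * (g * x * g⁻¹)) * g := by group
            _ = g⁻¹ * (g * x * g⁻¹ * y) * g := by rw [hy]
            _ = x * (g⁻¹ * y * g) := by group
        · change g * (g⁻¹ * y * g) * g⁻¹ = y
          group
    rw [← e, Subgroup.card_map_of_injective (MulAut.conj g).injective]
  rw [h3] at h2
  have h4 : 0 < Nat.card (centralizer ({x} : Set K)) := Nat.card_pos
  exact Nat.eq_of_mul_eq_mul_left h4 (h1.trans h2.symm)

/-- **every involution is 2-central** -/
theorem odd_index (H : Sheet K A S a) {x : K} (hx : x * x = 1) (hx1 : x ≠ 1) :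
    Odd (centralizer ({x} : Set K)).index := by
  obtain ⟨⟨i, h1⟩, ⟨i2, j2, h2, h3⟩, i3, j3, k3, h4, h5, h6, h7⟩ := exists_cent H
  have h01 : (0 : Fin 23) ≠ 1 := by decide
  have h02 : (0 : Fin 23) ≠ 2 := by decide
  have h12 : (1 : Fin 23) ≠ 2 := by decide
  rcases H.inv x hx hx1 with h | h | h
  · have hc : IsConj (a 0) (a i) := by
      obtain ⟨j, hj⟩ : ∃ j : Fin 23, j ∉ ({i} : Finset (Fin 23)) := by
        by_contra hcon
        push Not at hcon
        have h1 : (Finset.univ : Finset (Fin 23)) ⊆ {i} := fun l _ => hcon l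
        have h2 := Finset.card_le_card h1
        rw [Finset.card_univ, Fintype.card_fin, Finset.card_singleton] at h2
        omega
      obtain ⟨k, hk⟩ : ∃ k : Fin 23, k ∉ ({i, j} : Finset (Fin 23)) := by
        by_contra hcon
        push Not at hcon
        have h1 : (Finset.univ : Finset (Fin 23)) ⊆ {i, j} := fun l _ => hcon l
        have h2 := Finset.card_le_card h1
        have h3 : ({i, j} : Finset (Fin 23)).card ≤ 2 := Finset.card_le_two
        rw [Finset.card_univ, Fintype.card_fin] at h2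
        omega
      simp only [Finset.mem_insert, Finset.mem_singleton, not_or] at hj hk
      obtain ⟨n, -, hn, -⟩ := H.three 0 1 2 i j k h01 h02 h12 (Ne.symm hj) (Ne.symm hk.1) (Ne.symm hk.2)
      exact isConj_iff.2 ⟨n, hn⟩
    rw [index_conj (h.trans hc)]
    exact odd_index_of_le h1
  · have hc : IsConj (a 0 * a 1) (a i2 * a j2) := by
      obtain ⟨k, hk⟩ : ∃ k : Fin 23, k ∉ ({i2, j2} : Finset (Fin 23)) := by
        by_contra hcon
        push Not at hcon
        have h1 : (Finset.univ : Finset (Fin 23)) ⊆ {i2, j2} := fun l _ => hcon l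
        have h2 := Finset.card_le_card h1
        have h3 : ({i2, j2} : Finset (Fin 23)).card ≤ 2 := Finset.card_le_two
        rw [Finset.card_univ, Fintype.card_fin] at h2
        omega
      simp only [Finset.mem_insert, Finset.mem_singleton, not_or] at hk
      obtain ⟨n, -, hn1, hn2, -⟩ := H.three 0 1 2 i2 j2 k h01 h02 h12 h2 (Ne.symm hk.1) (Ne.symm hk.2)
      refine isConj_iff.2 ⟨n, ?_⟩
      rw [← hn1, ← hn2]; group
    rw [index_conj (h.trans hc)]
    exact odd_index_of_le h3
  · have hc : IsConj (a 0 * a 1 * a 2) (a i3 * a j3 * a k3) := by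
      obtain ⟨n, -, hn1, hn2, hn3⟩ := H.three 0 1 2 i3 j3 k3 h01 h02 h12 h4 h5 h6
      refine isConj_iff.2 ⟨n, ?_⟩
      rw [← hn1, ← hn2, ← hn3]; group
    rw [index_conj (h.trans hc)]
    exact odd_index_of_le h7

end Cfsg.Agent.H866.Fi23Odd
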