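import Cfsg.Agent.H858.VK

/-!
# A proper subgroup of `J4` containing a dihedral group of order 74 and more (helper866)

The stabilizer of the vector `vU` of the module of dimension 112 over the field of two elements contains
`x`, the involution `a`, the product `x * a` of order 37 and the element `h` not normalizing `⟨x * a⟩`; it does
not contain `y`.
-/

set_option autoImplicit false

open Cfsg

namespace Cfsg.Agent.H866.J4UData

open Cfsg.Agent.Lib Cfsg.Agent.Lib.F2MatGroup
open Cfsg.Agent.J4.Rep112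
open Cfsg.Agent.H858.VK

/-- the program: `a`, `h`, `g = x * a`, `g ^ 6` -/
def slp : List (List ℕ) := [
  [2, 3, 2, 0, 2, 0, 1, 0, 1, 3, 1],
  [2, 1, 3, 1, 2, 1, 2, 1, 3, 1, 2, 1, 2, 1, 3, 4, 2, 1, 3, 1, 3, 1, 2, 1, 3, 1, 3, 1, 2, 1, 3],
  [2, 1],
  [0, 0, 0, 0, 0, 0]]

/-- the equations: `x ^ 2 = a ^ 2 = g ^ 37 = 1` -/
def es : List (List ℕ × List ℕ) := [([4, 4], []), ([3, 3], []), ([2, 2], []), ([0, 0, 0, 0, 0, 0, 1], [])]

/-- `g ≠ 1` and `h g h` does not commute with `g` -/
def ns : List (List ℕ × List ℕ) := [([1], []), ([2, 1, 2, 1], [1, 2, 1, 2])]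

/-- the vector -/
def vU : ℕ := 3062311451959887602280563791989517

/-- the check of the vectors -/
def vchk (L : List ℕ) : Bool :=
  Nat.beq (F2Mat.vmul 112 vU (get (F2Mat.one 112) L 4)) vU &&
  Nat.beq (F2Mat.vmul 112 vU (get (F2Mat.one 112) L 3)) vU &&
  Nat.beq (F2Mat.vmul 112 vU (get (F2Mat.one 112) L 2)) vU &&
  !(Nat.beq (F2Mat.vmul 112 vU (get (F2Mat.one 112) L 5)) vU)

theorem check : run 112 slp codes
    (fun L => cond (eqs 112 es L) (cond (neqs 112 ns L) (vchk L) false) false) = true := by decide +kernel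

/-- the environment: `g ^ 6, g, h, a, x, y, y⁻¹, t` -/
noncomputable def LX : List Cfsg.Spor.J4 := runG slp gens

/-- the elements -/
noncomputable def g : Cfsg.Spor.J4 := getG LX 1
noncomputable def h : Cfsg.Spor.J4 := getG LX 2
noncomputable def a : Cfsg.Spor.J4 := getG LX 3

/-- `b` fixes the vector `v` -/
def Fixes (v : ℕ) (b : Cfsg.Spor.J4) : Prop :=
  Matrix.vecMul (F2Mat.toVec 112 v) ((rho b : GL (Fin 112) (ZMod 2)) : Matrix (Fin 112) (Fin 112) (ZMod 2)) =
    F2Mat.toVec 112 v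

theorem map_LX : LX.map rho = runG slp (gens.map rho) := by
  unfold LX
  rw [runG_map]

theorem sound : (∀ p ∈ es, evG LX p.1 = evG LX p.2) ∧ (∀ p ∈ ns, evG LX p.1 ≠ evG LX p.2) ∧
    Fixes vU (getG LX 4) ∧ Fixes vU a ∧ Fixes vU h ∧ ¬ Fixes vU (getG LX 5) := by
  obtain ⟨L', h', hk⟩ := run_sound codes_gens check
  have h'' : List.Forall₂ (Codes 112) (LX.map rho) L' := by rw [map_LX]; exact h'
  rcases hb : eqs 112 es L' with _ | _
  · rw [hb] at hk; exact absurd hk Bool.false_ne_true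
  rw [hb] at hk
  rcases hc : neqs 112 ns L' with _ | _
  · rw [hc] at hk; exact absurd hk Bool.false_ne_true
  rw [hc] at hk
  have hk' : vchk L' = true := hk
  refine ⟨fun p hp => ?_, fun p hp => ?_, ?_⟩
  · apply rho_injective
    rw [← evG_map, ← evG_map]
    exact eqs_sound h'' hb p hp
  · intro h0
    have h1 := congrArg rho h0
    rw [← evG_map, ← evG_map] at h1
    exact neqs_sound (by norm_num) h'' hc p hp h1
  · have key : ∀ i, rho (getG LX i) = rho (getG LX i) ∧
        Matrix.vecMul (F2Mat.toVec 112 vU)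
          ((rho (getG LX i) : GL (Fin 112) (ZMod 2)) : Matrix (Fin 112) (Fin 112) (ZMod 2)) =
          F2Mat.toVec 112 (F2Mat.vmul 112 vU (get (F2Mat.one 112) L' i)) := by
      intro i
      have h3 := codes_get h'' i
      rw [getG_map] at h3
      unfold Codes at h3
      exact ⟨rfl, by rw [h3, ← F2Mat.toVec_vmul]⟩
    unfold vchk at hk'
    simp only [Bool.and_eq_true, Bool.not_eq_true'] at hk'
    obtain ⟨⟨⟨h1, h2⟩, h3⟩, h4⟩ := hk'
    refine ⟨?_, ?_, ?_, ?_⟩
    · unfold Fixes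
      rw [(key 4).2, Nat.eq_of_beq_eq_true h1]
    · unfold Fixes a
      rw [(key 3).2, Nat.eq_of_beq_eq_true h2]
    · unfold Fixes h
      rw [(key 2).2, Nat.eq_of_beq_eq_true h3]
    · unfold Fixes
      rw [(key 5).2]
      intro h5
      have h6 := F2Mat.toVec_inj (F2Mat.vmul_lt vU _) (by norm_num [vU]) h5
      rw [h6, Nat.beq_refl] at h4
      exact absurd h4 (by decide)

theorem x_sq : getG LX 4 * getG LX 4 = 1 := by
  have := sound.1 _ (List.mem_cons_self)
  simpa [evG] using this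

theorem a_sq : a * a = 1 := by
  have := sound.1 ([3, 3], []) (by simp [es])
  simpa [evG, a] using this

theorem h_sq : h * h = 1 := by
  have := sound.1 ([2, 2], []) (by simp [es])
  simpa [evG, h] using this

theorem g_eq : g = getG LX 4 * a := by
  unfold g a LX slp
  rfl

theorem g_pow : g ^ 37 = 1 := by
  have h1 := sound.1 ([0, 0, 0, 0, 0, 0, 1], []) (by simp [es])
  have h2 : getG LX 0 = g ^ 6 := by
    have h3 : getG LX 0 = g * (g * (g * (g * (g * (g * 1))))) := rfl
    rw [h3]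
    simp only [mul_one, pow_succ, pow_zero, one_mul, mul_assoc]
  have h3 : (g ^ 6) * ((g ^ 6) * ((g ^ 6) * ((g ^ 6) * ((g ^ 6) * ((g ^ 6) * (g * 1)))))) = 1 := by
    rw [← h2]; exact h1
  rw [← h3]; group

theorem g_ne : g ≠ 1 := by
  have h1 := sound.2.1 ([1], []) (by simp [ns])
  intro h0
  apply h1
  change g * 1 = 1
  rw [h0, one_mul]

theorem order_g : orderOf g = 37 := by
  have : Fact (Nat.Prime 37) := ⟨by norm_num⟩
  exact orderOf_eq_prime g_pow g_ne

theorem not_comm : h * g * h * g ≠ g * h * g * h := by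
  have h1 := sound.2.1 ([2, 1, 2, 1], [1, 2, 1, 2]) (by simp [ns])
  intro h0
  apply h1
  change h * (g * (h * (g * 1))) = g * (h * (g * (h * 1)))
  simpa [mul_assoc] using h0

/-- the stabilizer of the vector -/
def S : Subgroup Cfsg.Spor.J4 where
  carrier := {b | Fixes vU b}
  one_mem' := by
    change Fixes vU 1
    unfold Fixes
    rw [map_one, Units.val_one, Matrix.vecMul_one]
  mul_mem' := by
    intro b c hb hc
    change Fixes vU (b * c)
    unfold Fixes at *
    rw [map_mul, Units.val_mul, ← Matrix.vecMul_vecMul]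
    rw [show Matrix.vecMul (F2Mat.toVec 112 vU) ((rho b : GL (Fin 112) (ZMod 2)) :
      Matrix (Fin 112) (Fin 112) (ZMod 2)) = F2Mat.toVec 112 vU from hb]
    exact hc
  inv_mem' := by
    intro b hb
    change Fixes vU b⁻¹
    unfold Fixes
    have hb' : Matrix.vecMul (F2Mat.toVec 112 vU) ((rho b : GL (Fin 112) (ZMod 2)) :
      Matrix (Fin 112) (Fin 112) (ZMod 2)) = F2Mat.toVec 112 vU := hb
    conv_lhs => rw [← hb']
    rw [Matrix.vecMul_vecMul, map_inv, Units.mul_inv, Matrix.vecMul_one]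

theorem x_mem : getG LX 4 ∈ S := sound.2.2.1
theorem a_mem : a ∈ S := sound.2.2.2.1
theorem h_mem : h ∈ S := sound.2.2.2.2.1
theorem g_mem : g ∈ S := by rw [g_eq]; exact S.mul_mem x_mem a_mem
theorem S_ne : S ≠ ⊤ := fun h0 => sound.2.2.2.2.2 (by
  have h1 : getG LX 5 ∈ (⊤ : Subgroup Cfsg.Spor.J4) := Subgroup.mem_top _
  rw [← h0] at h1
  exact h1)

end Cfsg.Agent.H866.J4UData
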