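import Cfsg.Agent.H866.MeetZ

/-!
# S5760, `p = 2`: a real element generating its centralizer (helper866)

If `t` inverts an element `x` of odd order with `|C(x)| = |x|`, then `|C(t)|² ≤ |S|`: so it is enough that every
involution `t` is 2-central or has `|C(t)|² > |S|`.
-/

set_option autoImplicit false

namespace Cfsg.Agent.H866.MeetReal

open Subgroup Cfsg.Agent.H68.MeetB

variable {S : Type*} [Group S] [Finite S]

/-- `|x^S| |x| ≤ |t^S|²` -/
theorem index_le {t x : S} (ht : t * t = 1) (htx : t * x * t⁻¹ = x⁻¹) (hodd : Odd (orderOf x)) :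
    (centralizer ({x} : Set S)).index * orderOf x ≤ (centralizer ({t} : Set S)).index ^ 2 := by
  obtain ⟨r, hr⟩ := hodd
  have hn : x ^ (2 * r + 1) = 1 := by rw [← hr, pow_orderOf_eq_one]
  have ht' : t⁻¹ = t := inv_eq_of_mul_eq_one_left ht
  have hpow : ∀ k : ℕ, t * x ^ k * t = (x ^ k)⁻¹ := by
    intro k
    rw [← inv_pow, ← htx, conj_pow, ht']
  have h2m : ∀ i : ℕ, x ^ (i * (r + 1)) * x ^ (i * (r + 1)) = x ^ i := by
    intro i
    rw [← pow_add, show i * (r + 1) + i * (r + 1) = (2 * r + 1) * i + i by ring, pow_add, pow_mul, hn, one_pow,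
      one_mul]
  let F : (S ⧸ centralizer ({x} : Set S)) × Fin (orderOf x) →
      (S ⧸ centralizer ({t} : Set S)) × (S ⧸ centralizer ({t} : Set S)) := fun p =>
    (QuotientGroup.mk (p.1.out * (x ^ ((p.2 : ℕ) * (r + 1)))⁻¹),
      QuotientGroup.mk (p.1.out * (x ^ (((p.2 : ℕ) + 1) * (r + 1)))⁻¹))
  have hmk : ∀ u v : S, (QuotientGroup.mk u : S ⧸ centralizer ({t} : Set S)) = QuotientGroup.mk v →
      u * t * u⁻¹ = v * t * v⁻¹ := by
    intro u v h
    rw [QuotientGroup.eq, mem_centralizer_singleton_iff] at h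
    calc u * t * u⁻¹ = u * (t * (u⁻¹ * v)) * v⁻¹ := by group
      _ = u * (u⁻¹ * v * t) * v⁻¹ := by rw [h]
      _ = v * t * v⁻¹ := by group
  have hF : Function.Injective F := by
    rintro ⟨q, i⟩ ⟨q', i'⟩ h
    have h1 := congrArg Prod.fst h
    have h2 := congrArg Prod.snd h
    have e1 := hmk _ _ h1
    have e2 := hmk _ _ h2
    have key : ∀ (g : S) (a : ℕ), (g * (x ^ (a * (r + 1)))⁻¹) * t * (g * (x ^ (a * (r + 1)))⁻¹)⁻¹ =
        g * (t * x ^ a) * g⁻¹ := by
      intro g a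
      have h3 : (x ^ (a * (r + 1)))⁻¹ * t = t * x ^ (a * (r + 1)) := by
        have h4 := hpow (a * (r + 1))
        calc (x ^ (a * (r + 1)))⁻¹ * t = t * x ^ (a * (r + 1)) * t * t := by rw [h4]
          _ = t * x ^ (a * (r + 1)) * (t * t) := by group
          _ = t * x ^ (a * (r + 1)) := by rw [ht, mul_one]
      calc (g * (x ^ (a * (r + 1)))⁻¹) * t * (g * (x ^ (a * (r + 1)))⁻¹)⁻¹
          = g * ((x ^ (a * (r + 1)))⁻¹ * t) * x ^ (a * (r + 1)) * g⁻¹ := by group
        _ = g * (t * x ^ (a * (r + 1))) * x ^ (a * (r + 1)) * g⁻¹ := by rw [h3]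
        _ = g * (t * (x ^ (a * (r + 1)) * x ^ (a * (r + 1)))) * g⁻¹ := by group
        _ = g * (t * x ^ a) * g⁻¹ := by rw [h2m]
    rw [key, key] at e1 e2
    -- the product
    have e3 : q.out * x * (q.out)⁻¹ = q'.out * x * (q'.out)⁻¹ := by
      have h5 : ∀ (g : S) (a : ℕ), (g * (t * x ^ a) * g⁻¹)⁻¹ * (g * (t * x ^ (a + 1)) * g⁻¹) = g * x * g⁻¹ := by
        intro g a
        calc (g * (t * x ^ a) * g⁻¹)⁻¹ * (g * (t * x ^ (a + 1)) * g⁻¹) =
            g * ((x ^ a)⁻¹ * (t⁻¹ * t) * x ^ (a + 1)) * g⁻¹ := by group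
          _ = g * x * g⁻¹ := by rw [inv_mul_cancel, mul_one, pow_succ]; group
      rw [← h5 q.out i, ← h5 q'.out i', e1, e2]
    have e4 : q = q' := by
      rw [← QuotientGroup.out_eq' q, ← QuotientGroup.out_eq' q', QuotientGroup.eq, mem_centralizer_singleton_iff]
      calc (q.out)⁻¹ * q'.out * x = (q.out)⁻¹ * (q'.out * x * (q'.out)⁻¹) * q'.out := by group
        _ = (q.out)⁻¹ * (q.out * x * (q.out)⁻¹) * q'.out := by rw [e3]
        _ = x * ((q.out)⁻¹ * q'.out) := by group
    subst e4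
    have e5 : x ^ (i : ℕ) = x ^ (i' : ℕ) := mul_left_cancel (mul_left_cancel (mul_right_cancel e1))
    have e6 : (i : ℕ) = i' := pow_injOn_Iio_orderOf i.2 i'.2 e5
    rw [Fin.ext e6]
  have h := Nat.card_le_card_of_injective F hF
  rw [Nat.card_prod, Nat.card_prod, Nat.card_fin] at h
  rw [pow_two]
  exact h

theorem sq_card_le {t x : S} (ht : t * t = 1) (htx : t * x * t⁻¹ = x⁻¹) (hodd : Odd (orderOf x))
    (hC : Nat.card (centralizer ({x} : Set S)) = orderOf x) :
    Nat.card (centralizer ({t} : Set S)) ^ 2 ≤ Nat.card S := by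
  have h1 := index_le ht htx hodd
  have h2 := (centralizer ({x} : Set S)).card_mul_index
  have h3 := (centralizer ({t} : Set S)).card_mul_index
  rw [hC] at h2
  rw [mul_comm, h2] at h1
  have h4 : 0 < Nat.card S := Nat.card_pos
  have h5 : Nat.card (centralizer ({t} : Set S)) ^ 2 * Nat.card S ≤ Nat.card S * Nat.card S := by
    calc Nat.card (centralizer ({t} : Set S)) ^ 2 * Nat.card S
        ≤ Nat.card (centralizer ({t} : Set S)) ^ 2 * (centralizer ({t} : Set S)).index ^ 2 :=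
          Nat.mul_le_mul_left _ h1
      _ = Nat.card S * Nat.card S := by rw [← mul_pow, h3, pow_two]
  exact Nat.le_of_mul_le_mul_right h5 h4

/-- **criterion**: a real element generating its centralizer -/
theorem meet_of_real {x : S} (hx1 : x ≠ 1) (hodd : Odd (orderOf x)) (hr : IsConj x x⁻¹)
    (hC : Nat.card (centralizer ({x} : Set S)) = orderOf x)
    (hcl : ∀ t : S, orderOf t = 2 → Odd (centralizer ({t} : Set S)).index ∨
      Nat.card S < Nat.card (centralizer ({t} : Set S)) ^ 2) : MeetIn 2 S := by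
  obtain ⟨y, hy⟩ := isConj_iff.1 hr
  have hCo : Odd (Nat.card (centralizer ({x} : Set S))) := by rw [hC]; exact hodd
  obtain ⟨t, ht, htx⟩ := MeetZ.exists_invol hy hCo hx1
  have htt : t * t = 1 := by rw [← pow_two, ← ht, pow_orderOf_eq_one]
  rcases hcl t ht with h | h
  · exact MeetZ.meet_of_odd h htt htx hCo
  · exact absurd (sq_card_le htt htx hodd hC) (not_le.2 h)

end Cfsg.Agent.H866.MeetReal
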